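import Cfsg.Agent.H360.CC.Par2
import Cfsg.Agent.H35.ExcIdx
import Cfsg.Agent.OddHalf.NI.ModelChev

/-!
# S4884, the piece (W2) of the row `E₇(q)`, `q` odd: parity of the multiplicities (helper726)

* `par2_chev` : `Par2` for the root group datum of a Chevalley group in odd characteristic, if for each root `s` there is a
  node `i` with `⟨s, αᵢ^∨⟩` odd (the group `E` of `H360.CC.par2` is `{±1}^l`, in the torus);
* `par2_E7`   : the case of `E₇`.
-/

set_option autoImplicit false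
set_option linter.unusedSectionVars false

namespace Cfsg.Agent.H726.X6

open CoxeterSystem Cfsg.Agent.ChevalleyStructure.CoxeterGeom Cfsg.Agent.Tits.Roots Cfsg.Agent.Tits.Core
  Cfsg.Agent.Nodes.Reps Cfsg.Agent.Nodes.BNOf Cfsg.Agent.Nodes.OppDec Cfsg.Agent.Nodes.RGDChev
  Cfsg.Agent.KFacts.RgdChevCoord
open Cfsg.Lie Cfsg.Agent.ChevalleyStructure Cfsg.Agent.ChevalleyStructure.Elts
  Cfsg.Agent.ChevalleyStructure.NPerm Cfsg.Agent.ChevalleyStructure.CoxeterGeomTypes
open Cfsg.Agent.OddHalf.NI.ModelChev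
open Cfsg.Agent.H35.ExcIdx (hpE7)

universe u

section chev

variable {D : ChevalleyDatum} {l : ℕ} {M : CoxeterMatrix (Fin l)} (hp : IsType D l M) (K : Type u) [Field K]

/-- signs, in the parameters of the torus -/
def sg (l : ℕ) (K : Type u) [Field K] : (Fin l → ℤˣ) →* (Fin l → Kˣ) :=
  MonoidHom.pi fun i => (Units.map (Int.castRingHom K : ℤ →* K)).comp (Pi.evalMonoidHom (fun _ : Fin l => ℤˣ) i)

theorem sg_apply (e : Fin l → ℤˣ) (i : Fin l) : ((sg l K e i : Kˣ) : K) = (((e i : ℤˣ) : ℤ) : K) := rfl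

theorem th_mem (t : Fin l → Kˣ) : th hp t ∈ TT D K := (thT hp t).2

/-- the scalar of a sign at the node `i` on the root group of `s` -/
theorem ch_sg {s : ℕ} (hs : s < D.nroots) (i : Fin l) (ho : D.cartan i s % 2 = 1) :
    ch hp (vec D l s) (th hp (sg l K (Pi.mulSingle i (-1)))) = -1 := by
  have h1 : ch hp (vec D l s) (th hp (sg l K (Pi.mulSingle i (-1)))) =
      chH hp hs (thT hp (sg l K (Pi.mulSingle i (-1)))) := rfl
  rw [h1, chH_thT, Finset.prod_eq_single i]
  · rw [sg_apply, Pi.mulSingle_eq_same]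
    have h2 : Odd (D.cartan i s) := Int.odd_iff.2 ho
    rw [Units.val_neg, Units.val_one, Int.cast_neg, Int.cast_one]
    exact h2.neg_one_zpow
  · intro j _ hj
    rw [sg_apply, Pi.mulSingle_eq_of_ne hj, Units.val_one, Int.cast_one, one_zpow]
  · intro h
    exact absurd (Finset.mem_univ i) h

/-- **parity for the Chevalley groups** -/
theorem par2_chev [Finite K] {r : ℕ} [Fact r.Prime] [CharP K r] (hr2 : r ≠ 2)
    {W : Type*} [Group W] [Finite W] (cs : CoxeterSystem M W)
    (hodd : ∀ s < D.nroots, ∃ i : Fin l, D.cartan i s % 2 = 1) :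
    Cfsg.Agent.H439.CC.Par2 cs hp.isCartan (TT D K) (XX D l K) := by
  have R := rgd (K := K) hp cs r
  have hgen : RGD.B cs hp.isCartan (TT D K) (XX D l K) ⊔ NN cs R.nsys = ⊤ :=
    Nodes.RGDLib.rgd_gen_of_G1 R (G1_eq_top hp cs)
  have hfin : Finite ↥(D.group K) := inferInstance
  have hE : IsPGroup 2 (Fin l → ℤˣ) := fun g => ⟨1, by
    funext i
    rw [pow_one, Pi.pow_apply, Pi.one_apply]
    exact Int.units_sq _⟩
  refine H360.CC.par2 hr2 R hgen hE ((MulAut.conj.comp (th hp)).comp (sg l K)) ?_ ?_ ?_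
  · intro e z hz x hx
    have h1 := R.tor z hz _ (th_mem hp K (sg l K e))
    have h2 : (MulAut.conj (th hp (sg l K e))) x ∈ cj (th hp (sg l K e)) (XX D l K z) :=
      Subgroup.mem_map_of_mem _ hx
    rw [h1] at h2
    exact h2
  · intro e t ht
    have h1 := th_mem hp K (sg l K e)
    exact mul_mem (mul_mem h1 ht) (inv_mem h1)
  · intro z hz _ x hx hall
    obtain ⟨s, hs, rfl⟩ := (isRoot_iff hp cs z).1 hz
    obtain ⟨a, rfl⟩ := (Nodes.ChevCls.mem_XX hp hs x).1 hx
    obtain ⟨i, hi⟩ := hodd s hs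
    have h1 : th hp (sg l K (Pi.mulSingle i (-1))) * xc hp (vec D l s) a * (th hp (sg l K (Pi.mulSingle i (-1))))⁻¹ =
        xc hp (vec D l s) a := hall (Pi.mulSingle i (-1))
    rw [(act hp hs (th_mem hp K _)).2, ch_sg hp K hs i hi] at h1
    have h2 := xc_inj hp hs h1
    have h3 : (2 : K) ≠ 0 := by
      intro h0
      have h4 : ((2 : ℕ) : K) = 0 := by exact_mod_cast h0
      rw [CharP.cast_eq_zero_iff K r] at h4
      exact hr2 ((Nat.prime_dvd_prime_iff_eq Fact.out Nat.prime_two).1 h4)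
    have h5 : a = 0 := by
      have h6 : 2 * a = 0 := by linear_combination -h2
      exact (mul_eq_zero.1 h6).resolve_left h3
    apply Subtype.ext
    rw [h5, coe_xc hp hs, xG_zero hp.inList s]
    rfl

end chev

/-- each root of `E₇` has an odd coordinate -/
theorem odd_E7 : ∀ s < chevE7.nroots, ∃ i : Fin 7, chevE7.cartan i s % 2 = 1 := by
  have h : ∀ s : Fin 126, ∃ i : Fin 7, chevE7.cartan i s % 2 = 1 := by decide +kernel
  intro s hs
  exact h ⟨s, hs⟩

/-- **parity for `E₇(q)`, `q` odd** -/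
theorem par2_E7 {F : Type u} [Field F] [Finite F] {r : ℕ} [Fact r.Prime] [CharP F r] (hr2 : r ≠ 2) :
    Cfsg.Agent.H439.CC.Par2 CoxeterMatrix.E₇.toCoxeterSystem hpE7.isCartan
      (H35.ExcIdx.TT chevE7 F) (H35.ExcIdx.XX chevE7 7 F) := by
  have := finite_W hpE7 CoxeterMatrix.E₇.toCoxeterSystem
  exact par2_chev hpE7 F hr2 _ odd_E7

end Cfsg.Agent.H726.X6
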